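import Mathlib.Analysis.Complex.Basic
import Mathlib.Tactic.Ring
import Mathlib.Tactic.Linarith
import Mathlib.Tactic.LinearCombination

/-!
# LV: a kernel checker for the short vectors of a positive definite form (helper22)

* `dt c a` : the pairing of an integer list with a list in a ring, `dot` : the same for integers;
* `Q F z` : the form `∑ W * (dot c z) ^ 2`, `F` a list of pairs `(W, c)`;
* `enum F n B P`, `enum_sound` : `P z` for all `z` of length `n` with `Q F z ≤ B`;
* `comb`, `dt_comb`, `Q_change` : change of basis;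
* `dual H w N B P`, `dual_sound` : complex vectors with integral pairings.
-/

set_option autoImplicit false

namespace Cfsg.Agent.LV.Enum

/-! ### forcing -/

/-- evaluate a natural number -/
def fn {α : Type} (n : ℕ) (k : ℕ → α) : α := Nat.casesOn n (k 0) fun m => k m.succ

theorem fn_eq {α : Type} (n : ℕ) (k : ℕ → α) : fn n k = k n := by cases n <;> rfl

/-- evaluate an integer -/
def fi {α : Type} (z : ℤ) (k : ℤ → α) : α :=
  Int.casesOn z (fun n => fn n fun m => k (.ofNat m)) fun n => fn n fun m => k (.negSucc m)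

theorem fi_eq {α : Type} (z : ℤ) (k : ℤ → α) : fi z k = k z := by
  cases z with
  | ofNat n => exact fn_eq n fun m => k (.ofNat m)
  | negSucc n => exact fn_eq n fun m => k (.negSucc m)

/-- evaluate a list -/
def fl {α β : Type} (f : β → (β → α) → α) : List β → (List β → α) → α
  | [], k => k []
  | a :: l, k => f a fun a' => fl f l fun l' => k (a' :: l')

theorem fl_realised : True := by have := @fl.eq_def; trivial

theorem fl_eq {α β : Type} {f : β → (β → α) → α} (h : ∀ a k, f a k = k a) : ∀ (l : List β) (k : List β → α), fl f l k = k l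
  | [], _ => rfl
  | a :: l, k => by rw [fl, h, fl_eq h]

/-- evaluate a matrix -/
def fm {α : Type} : List (List ℤ) → (List (List ℤ) → α) → α := fl (fl fi)

theorem fm_eq {α : Type} (l : List (List ℤ)) (k : List (List ℤ) → α) : fm l k = k l := fl_eq (fl_eq fi_eq) l k

/-! ### pairings -/

/-- the pairing of an integer list with a list in a ring -/
def dt {R : Type} [Ring R] : List ℤ → List R → R
  | a :: l, b :: m => a * b + dt l m
  | _, _ => 0

theorem dt_realised : True := by have := @dt.eq_def; trivial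

/-- the pairing of two integer lists -/
def dot : List ℤ → List ℤ → ℤ
  | a :: l, b :: m => Int.add (Int.mul a b) (dot l m)
  | _, _ => 0

theorem dot_realised : True := by have := @dot.eq_def; trivial

/-- the sum of two lists -/
def addL {α : Type} (f : α → α → α) : List α → List α → List α
  | a :: l, b :: m => f a b :: addL f l m
  | [], m => m
  | l, [] => l

theorem addL_realised : True := by have := @addL.eq_def; trivial

section

variable {R : Type} [CommRing R]

theorem dt_nil (a : List R) : dt [] a = 0 := by cases a <;> rfl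

theorem dt_nil' (c : List ℤ) : dt c ([] : List R) = 0 := by cases c <;> rfl

theorem dt_cons (a : ℤ) (l : List ℤ) (b : R) (m : List R) : dt (a :: l) (b :: m) = a * b + dt l m := rfl

theorem dt_cast : ∀ c z : List ℤ, dt c (z.map (Int.cast : ℤ → R)) = (dot c z : ℤ)
  | [], z => by rw [dt_nil]; cases z <;> exact Int.cast_zero.symm
  | _ :: _, [] => Int.cast_zero.symm
  | a :: l, b :: m => by
    rw [List.map_cons, dt_cons, dt_cast l m, ← Int.cast_mul, ← Int.cast_add]
    rfl

theorem dot_eq (c z : List ℤ) : dot c z = dt c z := by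
  have h := dt_cast (R := ℤ) c z
  rw [show (Int.cast : ℤ → ℤ) = id from rfl, List.map_id] at h
  exact h.symm

theorem dt_add : ∀ (a b : List ℤ) (z : List R), dt (addL Int.add a b) z = dt a z + dt b z
  | [], b, z => by rw [dt_nil, zero_add]; cases b <;> rfl
  | _ :: _, [], z => by rw [dt_nil, add_zero]; rfl
  | _ :: _, _ :: _, [] => by rw [dt_nil', dt_nil', dt_nil', add_zero]
  | a :: l, b :: m, x :: z => by
    rw [addL, dt_cons, dt_add l m z, dt_cons, dt_cons, show a.add b = a + b from rfl, Int.cast_add]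
    ring

theorem dt_smul (s : ℤ) : ∀ (a : List ℤ) (z : List R), dt (a.map (Int.mul s)) z = s * dt a z
  | [], z => by rw [List.map_nil, dt_nil, mul_zero]
  | _ :: _, [] => by rw [dt_nil', dt_nil', mul_zero]
  | a :: l, x :: z => by
    rw [List.map_cons, dt_cons, dt_smul s l z, dt_cons, show s.mul a = s * a from rfl, Int.cast_mul]
    ring

theorem dt_zero : ∀ (y : List R) (c : List ℤ) (x : List R), dt (List.replicate y.length 0 ++ c) (y ++ x) = dt c x
  | [], _, _ => rfl
  | b :: y, c, x => by
    rw [List.length_cons, List.replicate_succ, List.cons_append, List.cons_append, dt_cons, dt_zero y c x, Int.cast_zero,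
      zero_mul, zero_add]

theorem dt_range (z : ℕ → R) : ∀ (n : ℕ) (c : List ℤ),
    dt c ((List.range n).map z) = ∑ i ∈ Finset.range n, (c.getD i 0 : ℤ) * z i := by
  intro n
  induction n generalizing z with
  | zero => exact dt_nil'
  | succ n ih =>
    rintro (_ | ⟨a, c⟩)
    · simp [dt_nil]
    · rw [List.range_succ_eq_map, List.map_cons, List.map_map, dt_cons, ih, Finset.sum_range_succ', add_comm]
      rfl

theorem dot_range (z : ℕ → ℤ) (n : ℕ) (c : List ℤ) :
    dot c ((List.range n).map z) = ∑ i ∈ Finset.range n, c.getD i 0 * z i := (dot_eq _ _).trans (dt_range z n c)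

/-- the linear combination of the rows -/
def comb : List ℤ → List (List ℤ) → List ℤ
  | a :: l, v :: V => addL Int.add (v.map (Int.mul a)) (comb l V)
  | _, _ => []

theorem comb_realised : True := by have := @comb.eq_def; trivial

theorem dt_comb (z : List R) : ∀ (c : List ℤ) (V : List (List ℤ)), dt (comb c V) z = dt c (V.map (dt · z))
  | [], V => by rw [dt_nil]; cases V <;> exact dt_nil z
  | _ :: _, [] => dt_nil z
  | a :: l, v :: V => by rw [comb, dt_add, dt_smul, dt_comb z l V, List.map_cons, dt_cons]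

theorem dot_comb (z c : List ℤ) (V : List (List ℤ)) : dot (comb c V) z = dot c (V.map (dot · z)) := by
  simp only [dot_eq, dt_comb]

end

/-! ### forms -/

/-- the form -/
def Q (F : List (ℤ × List ℤ)) (z : List ℤ) : ℤ := (F.map fun r => r.1 * dot r.2 z ^ 2).sum

theorem Q_cons (r : ℤ × List ℤ) (F : List (ℤ × List ℤ)) (z : List ℤ) : Q (r :: F) z = r.1 * dot r.2 z ^ 2 + Q F z := rfl

/-- change of basis -/
theorem Q_change (F : List (ℤ × List ℤ)) (V : List (List ℤ)) (z : List ℤ) :
    Q (F.map fun r => (r.1, comb r.2 V)) z = Q F (V.map (dot · z)) := by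
  simp only [Q, List.map_map, Function.comp_def, dot_comb]

/-- the Gram matrix -/
def gram : List (ℤ × List ℤ) → List (List ℤ)
  | [] => []
  | r :: F => addL (addL Int.add) (r.2.map fun a => r.2.map (Int.mul (Int.mul r.1 a))) (gram F)

theorem gram_realised : True := by have := @gram.eq_def; trivial

theorem map_addL (z : List ℤ) : ∀ A B : List (List ℤ),
    (addL (addL Int.add) A B).map (dt · z) = addL Int.add (A.map (dt · z)) (B.map (dt · z))
  | [], B => by cases B <;> rfl
  | _ :: _, [] => rfl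
  | a :: A, b :: B => by
    rw [addL, List.map_cons, map_addL z A B, dt_add]
    rfl

theorem gram_eq (z : List ℤ) : ∀ F : List (ℤ × List ℤ), dt ((gram F).map (dt · z)) z = Q F z
  | [] => dt_nil z
  | r :: F => by
    have h : (r.2.map fun a => r.2.map (Int.mul (Int.mul r.1 a))).map (dt · z) = r.2.map (Int.mul (r.1 * dt r.2 z)) := by
      rw [List.map_map]
      refine List.map_congr_left fun a _ => (dt_smul _ _ _).trans ?_
      show r.1 * a * _ = r.1 * _ * a
      ring
    rw [gram, map_addL, dt_add, gram_eq z F, h, dt_smul, Q_cons, dot_eq, Int.cast_id]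
    ring

theorem Q_scale (D : ℤ) (z : List ℤ) : ∀ F : List (ℤ × List ℤ), Q (F.map fun r => (Int.mul D r.1, r.2)) z = D * Q F z
  | [] => (mul_zero D).symm
  | r :: F => by
    rw [List.map_cons, Q_cons, Q_scale D z F, Q_cons, show D.mul r.1 = D * r.1 from rfl]
    ring

/-! ### the search -/

/-- one direction -/
def scan (f : ℤ → ℤ → Bool) (d e t B : ℤ) : ℕ → ℤ → ℤ → Bool
  | 0, _, _ => false
  | n + 1, z, v => fi (Int.sub B (Int.mul e (Int.mul v v))) fun B' =>
      Int.casesOn B' (fun _ => f z B' && fi (Int.add z d) fun z' => fi (Int.add v t) fun v' => scan f d e t B n z' v')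
        fun _ => true

theorem scan_realised : True := by have := @scan.eq_def; trivial

theorem scan_sound {f : ℤ → ℤ → Bool} {d e t B : ℤ} (he : 0 ≤ e) (ht : 0 ≤ t) : ∀ (n : ℕ) (z v : ℤ), 0 ≤ v →
    scan f d e t B n z v = true → ∀ j : ℕ, e * (v + j * t) ^ 2 ≤ B → f (z + j * d) (B - e * (v + j * t) ^ 2) = true
  | 0, _, _, _, h, _, _ => nomatch h
  | n + 1, z, v, hv, h, j, hj => by
    have h1 : 0 ≤ (j : ℤ) * t := mul_nonneg (Int.natCast_nonneg j) ht
    have h2 : 0 ≤ B - e * v ^ 2 := by
      have := mul_le_mul_of_nonneg_left (pow_le_pow_left₀ hv (le_add_of_nonneg_right h1) 2) he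
      linarith
    rw [scan, fi_eq, show B.sub (e.mul (v.mul v)) = B - e * v ^ 2 by rw [sq]; rfl] at h
    obtain ⟨m, hm⟩ := Int.eq_ofNat_of_zero_le h2
    have h3 : (f z (B - e * v ^ 2) && scan f d e t B n (z + d) (v + t)) = true := by
      rw [fi_eq, fi_eq, hm] at h
      rw [hm]
      exact h
    rw [Bool.and_eq_true] at h3
    rcases j with _ | j
    · simpa using h3.1
    · have h4 := scan_sound he ht n _ _ (add_nonneg hv ht) h3.2 j
      rw [show v + t + j * t = v + (j + 1 : ℕ) * t by push_cast; ring,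
        show z + d + j * d = z + (j + 1 : ℕ) * d by push_cast; ring] at h4
      exact h4 hj

/-- the search tree -/
def dfs (P : List ℤ → Bool) : List (ℤ × ℤ × List ℤ) → ℤ → List ℤ → Bool
  | [], _, x => P x
  | r :: R, B, x => fi (dot r.2.2 x) fun s => fi (Int.neg (Int.ediv s r.2.1)) fun z => fi (Int.emod s r.2.1) fun v =>
      scan (fun y B' => dfs P R B' (y :: x)) 1 r.1 r.2.1 B 100000 z v &&
      fi (Int.sub z 1) fun z' => fi (Int.sub r.2.1 v) fun v' =>
        scan (fun y B' => dfs P R B' (y :: x)) (-1) r.1 r.2.1 B 100000 z' v'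

theorem dfs_realised : True := by have := @dfs.eq_def; trivial

/-- the triangular forms -/
def dense : List (ℤ × ℤ × List ℤ) → List (ℤ × List ℤ)
  | [] => []
  | r :: R => (r.1, List.replicate R.length 0 ++ r.2.1 :: r.2.2) :: dense R

theorem dense_realised : True := by have := @dense.eq_def; trivial

theorem Q_dense_nonneg (z : List ℤ) : ∀ R : List (ℤ × ℤ × List ℤ), (∀ r ∈ R, 0 ≤ r.1 ∧ 0 < r.2.1) → 0 ≤ Q (dense R) z
  | [], _ => le_rfl
  | r :: R, h => add_nonneg (mul_nonneg (h r (.head _)).1 (sq_nonneg _)) (Q_dense_nonneg z R fun s hs => h s (.tail _ hs))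

theorem dfs_sound {P : List ℤ → Bool} : ∀ (R : List (ℤ × ℤ × List ℤ)) (B : ℤ) (x y : List ℤ), (∀ r ∈ R, 0 ≤ r.1 ∧ 0 < r.2.1) →
    dfs P R B x = true → y.length = R.length → Q (dense R) (y ++ x) ≤ B → P (y ++ x) = true
  | [], _, _, y, _, h, hy, _ => by
    rw [List.length_eq_zero_iff.1 hy]
    exact h
  | r :: R, B, x, y, hR, h, hy, hB => by
    obtain ⟨y, a, rfl⟩ : ∃ y' a, y = y' ++ [a] := by
      rcases List.eq_nil_or_concat y with rfl | ⟨y', a, rfl⟩
      · exact nomatch hy
      · exact ⟨y', a, List.concat_eq_append⟩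
    have h1 : y.length = R.length := by simpa using hy
    have h2 := hR r (.head _)
    have h3 : ∀ s ∈ R, 0 ≤ s.1 ∧ 0 < s.2.1 := fun s hs => hR s (.tail _ hs)
    rw [List.append_assoc, List.singleton_append] at hB ⊢
    rw [dense, Q_cons, dot_eq, ← h1, dt_zero, dt_cons, ← dot_eq, Int.cast_id] at hB
    have h4 := Q_dense_nonneg (y ++ a :: x) R h3
    simp only [dfs, fi_eq, Bool.and_eq_true] at h
    generalize dot r.2.2 x = s at h hB
    have h5 : r.2.1 * (s / r.2.1) + s % r.2.1 = s := Int.mul_ediv_add_emod s _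
    refine dfs_sound R (B - r.1 * (r.2.1 * a + s) ^ 2) _ y h3 ?_ h1 (by linarith)
    rcases le_or_gt (-(s / r.2.1)) a with h6 | h6
    · obtain ⟨j, hj⟩ := Int.eq_ofNat_of_zero_le (sub_nonneg.2 h6)
      have h7 := scan_sound h2.1 h2.2.le _ _ _ (Int.emod_nonneg s h2.2.ne') h.1 j
      rw [show s % r.2.1 + j * r.2.1 = r.2.1 * a + s by rw [← hj]; linear_combination h5,
        show (s.ediv r.2.1).neg + j * 1 = a by rw [← hj]; show -(s / r.2.1) + _ = _; ring] at h7
      exact h7 (by linarith)
    · obtain ⟨j, hj⟩ := Int.eq_ofNat_of_zero_le (show 0 ≤ -(s / r.2.1) - 1 - a by omega)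
      have h7 := scan_sound h2.1 h2.2.le _ _ _ (sub_nonneg.2 (Int.emod_lt_of_pos s h2.2).le) h.2 j
      rw [show r.2.1 - s % r.2.1 + j * r.2.1 = -(r.2.1 * a + s) by rw [← hj]; linear_combination -h5, neg_sq,
        show ((s.ediv r.2.1).neg.sub 1) + j * -1 = a by rw [← hj]; show -(s / r.2.1) - 1 + _ = _; ring] at h7
      exact h7 (by linarith)

/-! ### the checker -/

/-- fraction free elimination (no correctness proof is needed) -/
def ldl {α : Type} : ℕ → ℤ → List (List ℤ) → List (ℤ × ℤ × List ℤ) → (List (ℤ × ℤ × List ℤ) → α) → α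
  | n + 1, d, (g :: r) :: G, R, k =>
      fm (G.map fun s => List.zipWith (fun a b => Int.ediv (Int.sub (Int.mul g a) (Int.mul (s.headD 0) b)) d) s.tail r)
        fun G' => fi (Int.mul d g) fun e => ldl n g G' ((e, g, r) :: R) k
  | _, _, _, R, k => k R

theorem ldl_realised : True := by have := @ldl.eq_def; trivial

theorem ldl_ex {α : Type} : ∀ (n : ℕ) (d : ℤ) (G : List (List ℤ)) (R : List (ℤ × ℤ × List ℤ))
    (k : List (ℤ × ℤ × List ℤ) → α), ∃ R', ldl n d G R k = k R'
  | 0, _, G, R, _ => ⟨R, by rcases G with _ | ⟨_ | _, _⟩ <;> rfl⟩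
  | _ + 1, _, [], R, _ => ⟨R, rfl⟩
  | _ + 1, _, [] :: _, R, _ => ⟨R, rfl⟩
  | n + 1, d, (g :: r) :: G, R, k => by
    rw [ldl, fm_eq, fi_eq]
    exact ldl_ex n _ _ _ k

/-- the check for given triangular forms -/
def chk (F : List (ℤ × List ℤ)) (n : ℕ) (B : ℤ) (P : List ℤ → Bool) (D : ℤ) (R : List (ℤ × ℤ × List ℤ)) : Bool :=
  decide (R.length = n) && decide (0 ≤ D) && (R.all fun r => decide (0 ≤ r.1) && decide (0 < r.2.1)) &&
    decide (gram (dense R) = gram (F.map fun r => (Int.mul D r.1, r.2))) && fi (Int.mul D B) fun B' => dfs P R B' []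

theorem chk_sound {F : List (ℤ × List ℤ)} {n : ℕ} {B : ℤ} {P : List ℤ → Bool} {D : ℤ} {R : List (ℤ × ℤ × List ℤ)}
    (h : chk F n B P D R = true) {z : List ℤ} (hz : z.length = n) (hB : Q F z ≤ B) : P z = true := by
  simp only [chk, fi_eq, Bool.and_eq_true, decide_eq_true_eq, List.all_eq_true] at h
  obtain ⟨⟨⟨⟨h1, h2⟩, h3⟩, h4⟩, h5⟩ := h
  have h6 := dfs_sound R _ [] z h3 h5 (hz.trans h1.symm)
  rw [List.append_nil, ← gram_eq, h4, gram_eq, Q_scale] at h6
  exact h6 (mul_le_mul_of_nonneg_left hB h2)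

/-- **the checker** -/
def enum (F : List (ℤ × List ℤ)) (n : ℕ) (B : ℤ) (P : List ℤ → Bool) : Bool :=
  fl (fun r k => fi r.1 fun a => fl fi r.2 fun c => k (a, c)) F fun F' => fm (gram F') fun G => ldl n 1 G [] fun R =>
    fn (R.foldr (fun r a => fn a fun a' => Nat.lcm r.1.natAbs a') 1) fun D =>
      fl (fun r k => fi r.1 fun e => k (e, r.2)) (R.map fun r => (Int.ediv D r.1, r.2)) fun R' => chk F' n B P D R'

theorem enum_sound {F : List (ℤ × List ℤ)} {n : ℕ} {B : ℤ} {P : List ℤ → Bool} (h : enum F n B P = true) {z : List ℤ}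
    (hz : z.length = n) (hB : Q F z ≤ B) : P z = true := by
  rw [enum, fl_eq (fun r k => by rw [fi_eq, fl_eq fi_eq]), fm_eq] at h
  obtain ⟨R, hR⟩ := ldl_ex n 1 (gram F) [] fun R => fn (R.foldr (fun r a => fn a fun a' => Nat.lcm r.1.natAbs a') 1) fun D =>
    fl (fun r k => fi r.1 fun e => k (e, r.2)) (R.map fun r => (Int.ediv D r.1, r.2)) fun R' => chk F n B P D R'
  rw [hR, fn_eq, fl_eq fun r k => by rw [fi_eq]] at h
  exact chk_sound h hz hB

/-- the same in the basis `V`: the forms are `comb c V` -/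
theorem enum_change {F F' : List (ℤ × List ℤ)} {V : List (List ℤ)} {B : ℤ} {P : List ℤ → Bool}
    (hF : F = F'.map fun r => (r.1, comb r.2 V)) (h : enum F' V.length B (fun y => P (F'.map fun r => dot r.2 y)) = true)
    {z : List ℤ} (hB : Q F z ≤ B) : P (F.map fun r => dot r.2 z) = true := by
  subst hF
  rw [Q_change] at hB
  have h1 := enum_sound h (List.length_map _) hB
  simpa only [List.map_map, Function.comp_def, dot_comb] using h1

/-! ### the dual form -/

/-- solve `comb c H = τ` for an upper triangular matrix (no correctness proof is needed) -/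
def solve : ℕ → List (List ℤ) → List ℤ → List ℤ
  | n + 1, r :: H, τ => fi (Int.ediv (τ.headD 0) (r.headD 1)) fun c =>
      fl fi (addL Int.add τ.tail (r.tail.map (Int.mul (Int.neg c)))) fun τ' => c :: solve n (H.map List.tail) τ'
  | _, _, _ => []

theorem solve_realised : True := by have := @solve.eq_def; trivial

/-- `N` times a unit vector -/
def uv (n : ℕ) (N : ℤ) (i : ℕ) : List ℤ := List.replicate i 0 ++ N :: List.replicate (n - (i + 1)) 0

theorem dt_rep {R : Type} [CommRing R] : ∀ (m : ℕ) (a : List R), dt (List.replicate m 0) a = 0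
  | 0, a => dt_nil a
  | _ + 1, [] => rfl
  | m + 1, b :: a => by rw [List.replicate_succ, dt_cons, dt_rep m a, Int.cast_zero, zero_mul, add_zero]

theorem dt_uv {R : Type} [CommRing R] (a : List R) (n : ℕ) (N : ℤ) (i : ℕ) (hi : i < a.length) : dt (uv n N i) a = N * a[i] := by
  have h := dt_zero (a.take i) (N :: List.replicate (n - (i + 1)) 0) (a[i] :: a.drop (i + 1))
  rwa [List.length_take_of_le hi.le, dt_cons, dt_rep, add_zero, List.getElem_cons_drop, List.take_append_drop] at h

/-- the check with a given left inverse `C` -/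
def dualC (H C : List (List ℤ)) (w : List ℤ) (N B : ℤ) (P : List ℤ → Bool) : Bool :=
  decide (C.map (comb · H) = (List.range w.length).map (uv w.length N)) &&
    enum (w.zip C) H.length B fun y => fm [C.map (dot · y)] fun x => P (x.headD [])

/-- **the checker for the dual lattice of an upper triangular matrix** -/
def dual (H : List (List ℤ)) (w : List ℤ) (N B : ℤ) (P : List ℤ → Bool) : Bool :=
  fm ((List.range w.length).map fun i => solve w.length H (uv w.length N i)) fun C => dualC H C w N B P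

theorem exists_ints {a : List ℂ} : ∀ H : List (List ℤ), (∀ r ∈ H, ∃ k : ℤ, dt r a = k) →
    ∃ y : List ℤ, H.map (dt · a) = y.map Int.cast
  | [], _ => ⟨[], rfl⟩
  | r :: H, h => by
    obtain ⟨k, hk⟩ := h r (.head _)
    obtain ⟨y, hy⟩ := exists_ints H fun s hs => h s (.tail _ hs)
    exact ⟨k :: y, by rw [List.map_cons, hk, hy, List.map_cons]⟩

theorem Q_zip (N : ℤ) (y : List ℤ) : ∀ (w : List ℤ) (C : List (List ℤ)) (a : List ℂ),
    a.map ((N : ℂ) * ·) = (C.map (dot · y)).map Int.cast →
    (Q (w.zip C) y : ℝ) = N ^ 2 * (List.zipWith (fun (x : ℤ) (b : ℂ) => (x : ℝ) * ‖b‖ ^ 2) w a).sum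
  | [], _, _, _ => by simp [Q]
  | _ :: _, [], a, h => by
    rw [List.map_eq_nil_iff.1 h]
    simp [Q]
  | _ :: _, _ :: _, [], h => nomatch h
  | x :: w, c :: C, b :: a, h => by
    simp only [List.map_cons, List.cons.injEq] at h
    have h1 : ((dot c y : ℤ) : ℝ) ^ 2 = N ^ 2 * ‖b‖ ^ 2 := by
      rw [← sq_abs, ← Complex.norm_intCast, ← h.1, norm_mul, Complex.norm_intCast, mul_pow, sq_abs]
    rw [List.zip_cons_cons, Q_cons, Int.cast_add, Q_zip N y w C a h.2, List.zipWith_cons_cons, List.sum_cons, Int.cast_mul,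
      Int.cast_pow, h1]
    ring

theorem dualC_sound {H C : List (List ℤ)} {w : List ℤ} {N B : ℤ} {P : List ℤ → Bool} (h : dualC H C w N B P = true)
    {a : List ℂ} (ha : a.length = w.length) (hH : ∀ r ∈ H, ∃ k : ℤ, dt r a = k)
    (hB : (N : ℝ) ^ 2 * (List.zipWith (fun (x : ℤ) (b : ℂ) => (x : ℝ) * ‖b‖ ^ 2) w a).sum ≤ B) :
    ∃ x : List ℤ, a.map ((N : ℂ) * ·) = x.map Int.cast ∧ P x = true := by
  simp only [dualC, Bool.and_eq_true, decide_eq_true_eq, fm_eq, List.headD_cons] at h
  obtain ⟨y, hy⟩ := exists_ints H hH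
  have h1 : a.map ((N : ℂ) * ·) = (C.map (dot · y)).map Int.cast := by
    have h2 := congrArg (List.map (dt · a)) h.1
    simp only [List.map_map, Function.comp_def, dt_comb, hy, dt_cast] at h2
    rw [List.map_map, Function.comp_def, h2]
    refine List.ext_getElem (by simp [ha]) fun i h3 _ => ?_
    rw [List.getElem_map, List.getElem_map, List.getElem_range, dt_uv a _ N i (by simpa using h3)]
  refine ⟨_, h1, enum_sound h.2 (by simpa using (congrArg List.length hy).symm) ?_⟩
  rw [← Q_zip N y w C a h1] at hB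
  exact_mod_cast hB

/-- **complex vectors with integral pairings and small norm** -/
theorem dual_sound {H : List (List ℤ)} {w : List ℤ} {N B : ℤ} {P : List ℤ → Bool} (h : dual H w N B P = true)
    {a : List ℂ} (ha : a.length = w.length) (hH : ∀ r ∈ H, ∃ k : ℤ, dt r a = k)
    (hB : (N : ℝ) ^ 2 * (List.zipWith (fun (x : ℤ) (b : ℂ) => (x : ℝ) * ‖b‖ ^ 2) w a).sum ≤ B) :
    ∃ x : List ℤ, a.map ((N : ℂ) * ·) = x.map Int.cast ∧ P x = true :=
  dualC_sound ((fm_eq _ _).symm.trans h) ha hH hB

end Cfsg.Agent.LV.Enum
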